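import Mathlib
import Cfsg.Agent.Helper14.OInv

/-! Pieces (S2) and (S3) for S2487 (team effort, owner helper14): the reflection and the Siegel
element of the hyperbolic quadratic form over the field with two elements. -/

set_option autoImplicit false

namespace Cfsg.Agent.S2487P

open Matrix Cfsg.Agent.Helper6 Cfsg.Agent.Helper14.OInv

/-- A field with two elements has characteristic two. -/
theorem h18_charTwo {F : Type*} [Field F] [Fintype F] (hF : Fintype.card F = 2) : CharP F 2 := by
  have h2 : (2 : F) = 0 := by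
    have h := Nat.cast_card_eq_zero F
    rw [hF] at h
    exact_mod_cast h
  exact CharTwo.of_one_ne_zero_of_two_eq_zero one_ne_zero h2

/-- The elements of a field with two elements. -/
theorem h18_zero_or_one {F : Type*} [Field F] [Fintype F] (hF : Fintype.card F = 2) (c : F) :
    c = 0 ∨ c = 1 := by
  classical
  have h : ({0, 1} : Finset F) = Finset.univ := by
    apply Finset.eq_univ_of_card
    rw [Finset.card_pair zero_ne_one, hF]
  have hc : c ∈ ({0, 1} : Finset F) := by rw [h]; exact Finset.mem_univ c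
  simpa using hc

/-- (S2) The reflection in a nonsingular vector `v`: a nonidentity isometry fixing `v^⊥`. -/
theorem h18_refl {F : Type*} [Field F] [Fintype F] (hF : Fintype.card F = 2) (m : ℕ)
    (v : Fin m ⊕ Fin m → F) (hv : Cfsg.quadFormPlus m F v ≠ 0) :
    ∃ g : Matrix.GeneralLinearGroup (Fin m ⊕ Fin m) F,
      g ∈ Cfsg.isometryGroup F (Cfsg.quadFormPlus m F) ∧ g ≠ 1 ∧
      ∀ x : Fin m ⊕ Fin m → F, Cfsg.sympForm m F x v = 0 →
        (g : Matrix (Fin m ⊕ Fin m) (Fin m ⊕ Fin m) F) *ᵥ x = x := by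
  classical
  have := h18_charTwo hF
  have hQv : Cfsg.quadFormPlus m F v = 1 := (h18_zero_or_one hF _).resolve_left hv
  set T : Matrix (Fin m ⊕ Fin m) (Fin m ⊕ Fin m) F := Cfsg.sympTransvection m v 1 with hT
  have hTx : ∀ x, T *ᵥ x = x + Cfsg.sympForm m F x v • v := by
    intro x
    rw [hT, tv_mulVec, one_mul]
  have hTT : T * T = 1 := by
    apply Matrix.mulVec_injective
    funext x
    rw [← Matrix.mulVec_mulVec, hTx x, hTx, Matrix.one_mulVec, sf_add_left, sf_smul_left,
      sf_self, mul_zero, add_zero, add_assoc, ← add_smul, CharTwo.add_self_eq_zero, zero_smul,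
      add_zero]
  refine ⟨⟨T, T, hTT, hTT⟩, ?_, ?_, ?_⟩
  · rw [mem_isom_iff]
    intro u
    show Cfsg.quadFormPlus m F (T *ᵥ u) = _
    rw [hTx, Q_add, Q_smul, hQv, sf_smul_right, mul_one, pow_two, add_assoc,
      CharTwo.add_self_eq_zero, add_zero]
  · intro hg
    have hT1 : T = 1 := congrArg Units.val hg
    have hv' : (∑ i : Fin m, v (Sum.inl i) * v (Sum.inr i)) ≠ 0 := hv
    obtain ⟨i, -, hi⟩ := Finset.exists_ne_zero_of_sum_ne_zero hv'
    have hvi : v (Sum.inr i) ≠ 0 := right_ne_zero_of_mul hi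
    have h1 := hTx (Pi.single (Sum.inl i) 1)
    rw [hT1, Matrix.one_mulVec] at h1
    have hf : Cfsg.sympForm m F (Pi.single (Sum.inl i) 1) v = v (Sum.inr i) := by
      rw [sf_symm, sf_single_inl]
    rw [hf] at h1
    have h2 := congrFun h1 (Sum.inr i)
    simp only [Pi.add_apply, Pi.smul_apply, smul_eq_mul] at h2
    have h3 : v (Sum.inr i) * v (Sum.inr i) = 0 := by
      exact left_eq_add.mp h2
    exact hvi (mul_self_eq_zero.mp h3)
  · intro x hx
    show T *ᵥ x = x
    rw [hTx, hx, zero_smul, add_zero]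

end Cfsg.Agent.S2487P
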