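import Mathlib

/-! Sylow wiring for S2487 (team effort, owner helper14), as an abstract group lemma. -/

set_option autoImplicit false

namespace Cfsg.Agent.S2487P

open scoped Pointwise

/-- If `C0` is a subgroup of exponent dividing `8` such that for every `y` some nonidentity
element of `C0` is conjugated into `C0` by `y⁻¹`, then any Sylow `2`-subgroup meets each of its
conjugates nontrivially. -/
theorem h18_sylow_meet {G : Type*} [Group G] [Finite G] (C0 : Subgroup G)
    (hC0 : ∀ c ∈ C0, c ^ 8 = 1)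
    (hkey : ∀ y : G, ∃ c : G, c ≠ 1 ∧ c ∈ C0 ∧ y⁻¹ * c * y ∈ C0)
    (H : Sylow 2 G) (x : G) :
    (H : Subgroup G) ⊓ MulAut.conj x • (H : Subgroup G) ≠ ⊥ := by
  have hp : IsPGroup 2 C0 := by
    intro c
    refine ⟨3, ?_⟩
    apply Subtype.ext
    have h := hC0 c c.2
    simpa using h
  obtain ⟨P1, hP1⟩ := hp.exists_le_sylow
  obtain ⟨g, hg⟩ := MulAction.exists_smul_eq G P1 H
  obtain ⟨c, hc1, hcC, hcy⟩ := hkey (g⁻¹ * x * g)
  intro hbot
  have hmem : g * c * g⁻¹ ∈ (H : Subgroup G) ⊓ MulAut.conj x • (H : Subgroup G) := by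
    rw [Subgroup.mem_inf]
    refine ⟨?_, ?_⟩
    · rw [← hg, Sylow.coe_subgroup_smul,
        Subgroup.mem_pointwise_smul_iff_inv_smul_mem]
      have e : (MulAut.conj g)⁻¹ • (g * c * g⁻¹) = c := by
        rw [MulAut.smul_def, MulAut.conj_inv_apply]; group
      rw [e]; exact hP1 hcC
    · rw [Subgroup.mem_pointwise_smul_iff_inv_smul_mem, ← hg,
        Sylow.coe_subgroup_smul, Subgroup.mem_pointwise_smul_iff_inv_smul_mem]
      have e : (MulAut.conj g)⁻¹ • ((MulAut.conj x)⁻¹ • (g * c * g⁻¹)) =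
          (g⁻¹ * x * g)⁻¹ * c * (g⁻¹ * x * g) := by
        rw [MulAut.smul_def, MulAut.smul_def, MulAut.conj_inv_apply, MulAut.conj_inv_apply]
        group
      rw [e]; exact hP1 hcy
  rw [hbot, Subgroup.mem_bot] at hmem
  apply hc1
  have e : c = g⁻¹ * (g * c * g⁻¹) * g := by group
  rw [e, hmem]; group

end Cfsg.Agent.S2487P
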